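import Mathlib

/-! Integer moment inequalities for blocks with two or three characters of height zero. -/

namespace CF.Hz3

open Finset

variable {X : Type*} [Fintype X]

theorem all_eq_of_sum {f : X → ℤ} {c : ℤ} (h : ∀ g, c ≤ f g)
    (hs : ∑ g, f g = c * Fintype.card X) (g : X) : f g = c := by
  have h0 : ∑ g, (f g - c) = 0 := by
    rw [sum_sub_distrib, hs, sum_const, card_univ, nsmul_eq_mul]; ring
  have := (sum_eq_zero_iff_of_nonneg (fun g _ => sub_nonneg.2 (h g))).1 h0 g (mem_univ g)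
  linarith

theorem exists_le_of_sum [Nonempty X] {f : X → ℤ} {c : ℤ}
    (hs : ∑ g, f g = c * Fintype.card X) : ∃ g, f g ≤ c := by
  by_contra! h
  have := all_eq_of_sum (fun g => (h g).le) hs (Classical.arbitrary X)
  have := h (Classical.arbitrary X)
  omega

theorem eq_three_of_dvd {p : ℕ} (hp : p.Prime) (h : (p : ℤ) ∣ 3) : p = 3 :=
  (Nat.prime_dvd_prime_iff_eq hp Nat.prime_three).1 (by exact_mod_cast h)

theorem not_dvd_one' {p : ℕ} (hp : p.Prime) : ¬ (p : ℤ) ∣ 1 := fun h =>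
  hp.one_lt.ne' (Nat.dvd_one.1 (by exact_mod_cast h))

theorem caseA_aux [Nonempty X] {p : ℕ} (hp : p.Prime) {x y : X → ℤ} {d e ε : ℤ} (hε : ε ^ 2 = 1)
    (he : ¬ (p : ℤ) ∣ e) (hx0 : ∑ g, x g = 0)
    (hx : ∑ g, x g ^ 2 = Fintype.card X) (hy : ∑ g, y g ^ 2 = Fintype.card X)
    (hr : ∀ g, (p : ℤ) ∣ 1 + d * x g + e * y g) (h1 : (p : ℤ) ∣ 1 + d * d + e * e)
    (h2 : (p : ℤ) ∣ 1 + d * ε) : p = 3 := by
  have h3 : (p : ℤ) ∣ d + ε := by
    have : d + ε = ε * (1 + d * ε) := by linear_combination (-d) * hε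
    rw [this]; exact h2.mul_left _
  have h4 : (p : ℤ) ∣ e ^ 2 + 2 := by
    have : e ^ 2 + 2 = (1 + d * d + e * e) - (d - ε) * (d + ε) := by linear_combination (-1) * hε
    rw [this]; exact h1.sub (h3.mul_left _)
  have h5 : ∀ g, (p : ℤ) ∣ (ε * x g - 1) ^ 2 + 2 * y g ^ 2 := fun g => by
    have h6 : (p : ℤ) ∣ e * y g - (ε * x g - 1) := by
      have : e * y g - (ε * x g - 1) = (1 + d * x g + e * y g) - x g * (d + ε) := by ring
      rw [this]; exact (hr g).sub (h3.mul_left _)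
    have : (ε * x g - 1) ^ 2 + 2 * y g ^ 2 = y g ^ 2 * (e ^ 2 + 2) -
        (e * y g + (ε * x g - 1)) * (e * y g - (ε * x g - 1)) := by ring
    rw [this]; exact (h4.mul_left _).sub (h6.mul_left _)
  have hlt : p < 11 := by
    by_contra! hge
    have h7 : ∀ g, 0 ≤ 3 * (ε * x g - 1) ^ 2 + 2 * y g ^ 2 + 9 * (ε * x g - 1) := fun g => by
      set u := ε * x g - 1
      by_cases hu : u = 0
      · rw [hu]; positivity
      · have hpos : 0 < u ^ 2 + 2 * y g ^ 2 := by positivity
        have := Int.le_of_dvd hpos (h5 g)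
        have h11 : (11 : ℤ) ≤ p := by exact_mod_cast hge
        nlinarith [sq_nonneg (4 * u + 9)]
    have h8 := sum_nonneg (s := univ) fun g _ => h7 g
    have h9 : ∑ g, (3 * (ε * x g - 1) ^ 2 + 2 * y g ^ 2 + 9 * (ε * x g - 1)) =
        3 * ∑ g, x g ^ 2 + 2 * ∑ g, y g ^ 2 + 3 * ε * ∑ g, x g - 6 * Fintype.card X := by
      rw [mul_sum, mul_sum, mul_sum, ← card_univ, ← nsmul_eq_mul', ← sum_const, ← sum_add_distrib,
        ← sum_add_distrib, ← sum_sub_distrib]
      exact sum_congr rfl fun g _ => by linear_combination (3 * x g ^ 2) * hε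
    rw [h9, hx, hy, hx0] at h8
    have : (0 : ℤ) < Fintype.card X := by exact_mod_cast Fintype.card_pos
    linarith
  have h2le := hp.two_le
  interval_cases p
  · exfalso; apply he; push_cast at h4 ⊢
    have : e % 2 = 0 ∨ e % 2 = 1 := by omega
    rcases this with h | h
    · omega
    · obtain ⟨k, rfl⟩ : ∃ k, e = 2 * k + 1 := ⟨e / 2, by omega⟩
      have : (2 * k + 1) ^ 2 + 2 = 2 * (2 * k ^ 2 + 2 * k + 1) + 1 := by ring
      omega
  · rfl
  · exact absurd hp (by norm_num)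
  · exfalso; push_cast at h4
    have h : ((e ^ 2 + 2 : ℤ) : ZMod 5) = 0 := (ZMod.intCast_zmod_eq_zero_iff_dvd _ 5).2 h4
    push_cast at h
    generalize (e : ZMod 5) = z at h
    revert z; decide
  · exact absurd hp (by norm_num)
  · exfalso; push_cast at h4
    have h : ((e ^ 2 + 2 : ℤ) : ZMod 7) = 0 := (ZMod.intCast_zmod_eq_zero_iff_dvd _ 7).2 h4
    push_cast at h
    generalize (e : ZMod 7) = z at h
    revert z; decide
  · exact absurd hp (by norm_num)
  · exact absurd hp (by norm_num)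
  · exact absurd hp (by norm_num)

theorem caseA {p : ℕ} (hp : p.Prime) {x y : X → ℤ} {d e : ℤ} (o : X) (hxo : x o = d)
    (hyo : y o = e) (hd : ¬ (p : ℤ) ∣ d) (he : ¬ (p : ℤ) ∣ e) (hx0 : ∑ g, x g = 0)
    (hy0 : ∑ g, y g = 0)
    (hx : ∑ g, x g ^ 2 = Fintype.card X) (hy : ∑ g, y g ^ 2 = Fintype.card X)
    (hr : ∀ g, (p : ℤ) ∣ 1 + d * x g + e * y g) : p = 3 := by
  haveI : Nonempty X := ⟨o⟩
  have h1 : (p : ℤ) ∣ 1 + d * d + e * e := by simpa only [hxo, hyo] using hr o
  by_cases h : ∃ g, x g ^ 2 + y g ^ 2 ≤ 1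
  · obtain ⟨g, hg⟩ := h
    have hxg : x g = 0 ∨ x g ^ 2 = 1 := by
      by_cases h : x g = 0
      · exact Or.inl h
      · have : 0 < x g ^ 2 := by positivity
        right; nlinarith [sq_nonneg (y g)]
    have hyg : y g = 0 ∨ y g ^ 2 = 1 := by
      by_cases h : y g = 0
      · exact Or.inl h
      · have : 0 < y g ^ 2 := by positivity
        right; nlinarith [sq_nonneg (x g)]
    have hg' := hr g
    rcases hxg with a | a <;> rcases hyg with b | b
    · rw [a, b] at hg'; exact absurd (by simpa using hg') (not_dvd_one' hp)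
    · rw [a] at hg'
      exact caseA_aux hp (x := y) (y := x) (d := e) (e := d) b hd hy0 hy hx
        (fun g => by rw [add_right_comm]; exact hr g) (by rw [add_right_comm]; exact h1)
        (by simpa using hg')
    · rw [b] at hg'
      exact caseA_aux hp a he hx0 hx hy hr h1 (by simpa using hg')
    · omega
  · push Not at h
    have h2 := all_eq_of_sum (f := fun g => x g ^ 2 + y g ^ 2) (c := 2) (fun g => h g)
      (by rw [sum_add_distrib, hx, hy]; ring) o
    simp only [hxo, hyo] at h2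
    refine eq_three_of_dvd hp ?_
    have : (3 : ℤ) = 1 + d * d + e * e := by linear_combination -h2
    rw [this]; exact h1

theorem caseB {p : ℕ} (hp : p.Prime) {t : X → ℤ} {d : ℤ} (o : X) (ho : t o = 2 * d)
    (ht : ∑ g, t g ^ 2 = 2 * Fintype.card X) (hr : ∀ g, (p : ℤ) ∣ 1 + d * t g) : p = 3 := by
  haveI : Nonempty X := ⟨o⟩
  obtain ⟨g, hg⟩ := exists_le_of_sum ht
  have h1 := hr o
  rw [ho] at h1
  have h2 := hr g
  by_cases h : t g = 0
  · rw [h] at h2; exact absurd (by simpa using h2) (not_dvd_one' hp)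
  have h3 : t g ^ 2 = 1 := by
    have a1 : t g ≤ 1 := by nlinarith
    have a2 : -1 ≤ t g := by nlinarith
    have : t g = 1 ∨ t g = -1 := by omega
    rcases this with a | a <;> rw [a] <;> norm_num
  refine eq_three_of_dvd hp ?_
  have : (3 : ℤ) = (1 + d * (2 * d)) + 2 * (1 - d * t g) * (1 + d * t g) := by
    linear_combination (2 * d ^ 2) * h3
  rw [this]; exact h1.add (h2.mul_left _)

theorem zero_or_three {F : X → ℤ} (h3 : ∀ g, (3 : ℤ) ∣ F g) (h1 : ∑ g, F g = Fintype.card X)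
    (h2 : ∑ g, F g ^ 2 = 3 * Fintype.card X) (g : X) : F g = 0 ∨ F g = 3 := by
  have h := all_eq_of_sum (f := fun g => F g ^ 2 - 3 * F g) (c := 0) (fun g => by
    obtain ⟨k, hk⟩ := h3 g
    rw [hk]
    by_cases h : k ≤ 0
    · nlinarith
    · nlinarith) (by rw [sum_sub_distrib, ← mul_sum, h1, h2]; ring) g
  have : F g * (F g - 3) = 0 := by linear_combination h
  rcases mul_eq_zero.1 this with a | a
  · exact Or.inl a
  · exact Or.inr (by linarith)

theorem const_of_sum {F : X → ℤ} (h : ∀ g, F g = 0 ∨ F g = 3) (h3 : ¬ 3 ∣ Fintype.card X)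
    (hs : (Fintype.card X : ℤ) ∣ ∑ g, F g) (a b : X) : F a = F b := by
  obtain ⟨n, hn⟩ := hs
  have h0 : (3 : ℤ) ∣ ∑ g, F g := dvd_sum fun g _ => by rcases h g with e | e <;> simp [e]
  have h1 : (3 : ℤ) ∣ n := by
    rw [hn] at h0
    exact (Int.prime_three.dvd_or_dvd h0).resolve_left fun h => h3 (by exact_mod_cast h)
  haveI : Nonempty X := ⟨a⟩
  have hc : (0 : ℤ) < Fintype.card X := by exact_mod_cast Fintype.card_pos
  have l1 : 0 ≤ ∑ g, F g := sum_nonneg fun g _ => by rcases h g with e | e <;> simp [e]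
  have l2 : ∑ g, F g ≤ ∑ _g : X, (3 : ℤ) :=
    sum_le_sum fun g _ => by rcases h g with e | e <;> simp [e]
  rw [sum_const, card_univ, nsmul_eq_mul, hn] at l2
  rw [hn] at l1
  have n0 : 0 ≤ n := by nlinarith
  have n3 : n ≤ 3 := by nlinarith
  have : n = 0 ∨ n = 3 := by omega
  rcases this with e | e
  · have k := all_eq_of_sum (f := F) (c := 0) (fun g => by rcases h g with e | e <;> simp [e])
      (by rw [hn, e]; ring)
    rw [k a, k b]
  · have k := all_eq_of_sum (f := fun g => -F g) (c := -3)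
      (fun g => by rcases h g with e | e <;> simp [e])
      (by rw [sum_neg_distrib, hn, e]; ring)
    have ka := k a
    have kb := k b
    linarith

theorem nine_contra {a b c f : ℤ} (ha : ¬ (3 : ℤ) ∣ a) (hb : (3 : ℤ) ∣ b - a)
    (hc : (3 : ℤ) ∣ c - a) (hf : f = 0 ∨ f = 3) (hs : a + b + c = f * a)
    (h9 : (9 : ℤ) ∣ a ^ 2 + b ^ 2 + c ^ 2) : False := by
  obtain ⟨s, hs'⟩ := hb
  obtain ⟨t, ht'⟩ := hc
  obtain rfl : b = a + 3 * s := by linarith
  obtain rfl : c = a + 3 * t := by linarith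
  have key : (3 : ℤ) ∣ a * a := by
    obtain ⟨k, hk⟩ := h9
    rcases hf with rfl | rfl
    · exact ⟨s ^ 2 + t ^ 2 - k, by
        have : s + t = -a := by linarith
        have h2 : 3 * (a * a) = 3 * (3 * (s ^ 2 + t ^ 2 - k)) := by
          linear_combination -hk + 6 * a * this
        linarith⟩
    · exact ⟨k - s ^ 2 - t ^ 2, by
        have : s + t = 0 := by linarith
        have h2 : 3 * (a * a) = 3 * (3 * (k - s ^ 2 - t ^ 2)) := by
          linear_combination hk - 6 * a * this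
        linarith⟩
  exact ha ((Int.prime_three.dvd_or_dvd key).elim id id)

end CF.Hz3
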