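import Cfsg.Agent.Char.Klein
import Cfsg.Agent.BlockB.Gal
import Cfsg.Agent.BlockB.Contrib

/-! Height zero characters of the principal block: congruences and moments. -/

namespace CF.Hz3

open Cfsg Finset CF.Char CF.BlockB
open scoped ComplexConjugate

variable {p : ℕ} {M : Ideal AlgInt} {G : Type*} [Group G] [Finite G]

open Classical in
/-- The members of the principal block of degree prime to `p`. -/
noncomputable def H0 (p : ℕ) (M : Ideal AlgInt) (G : Type*) [Group G] [Finite G] :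
    Finset (IrrCharacter G) := (pb M G).filter fun χ => ¬ p ∣ charDegree (χ : G → ℂ)

theorem mem_H0 {χ : IrrCharacter G} :
    χ ∈ H0 p M G ↔ χ ∈ principalBlock M G ∧ ¬ p ∣ charDegree (χ : G → ℂ) := by
  classical
  rw [H0, mem_filter, mem_pb]

theorem card_H0 : Nat.card {χ : IrrCharacter G // χ ∈ principalBlock M G ∧
    ¬ p ∣ charDegree (χ : G → ℂ)} = (H0 p M G).card := by
  rw [← Nat.card_eq_finsetCard]
  exact Nat.card_congr (Equiv.subtypeEquivRight fun χ => mem_H0.symm)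

theorem deg_one : charDegree (oneIrr G : G → ℂ) = 1 := BlockB.charDegree_of_eq (by simp)

theorem one_mem_H0 (hM : IsPModular p M) : oneIrr G ∈ H0 p M G :=
  mem_H0.2 ⟨mem_pb.1 (oneIrr_mem_pb hM), by
    rw [deg_one]; exact fun h => hM.1.one_lt.ne' (Nat.dvd_one.1 h)⟩

theorem rel_one (hM : IsPModular p M) (hp : p ∣ Nat.card G) (g : G) :
    v M (∑ χ ∈ H0 p M G, (charDegree (χ : G → ℂ) : ℂ) * (χ : G → ℂ) g) < 1 := by
  classical
  have h1 : v M ((eSet (principalBlock M G)).coeff g⁻¹) ≤ 1 :=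
    (v_coeff_le_nrm _ _).trans (nrm_eSet_pb hM)
  rw [coeff_eSet, blockCoeff, finsum_pb] at h1
  have h2 : v M (∑ χ ∈ pb M G, (charDegree (χ : G → ℂ) : ℂ) * (χ : G → ℂ) g) < 1 := by
    have e : ∑ χ ∈ pb M G, (charDegree (χ : G → ℂ) : ℂ) * (χ : G → ℂ) g =
        (Nat.card G : ℂ) * ((Nat.card G : ℂ)⁻¹ *
          ∑ χ ∈ pb M G, (χ : G → ℂ) 1 * conj ((χ : G → ℂ) g⁻¹)) := by
      rw [← mul_assoc, mul_inv_cancel₀ card_ne_zero_complex, one_mul]
      refine sum_congr rfl fun χ _ => ?_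
      rw [irr_charDegree_eq, gen_inv (gen_of_irr χ.2), Complex.conj_conj]
    rw [e]
    exact v_mul_lt_one_left ((v_natCast_lt_one_iff hM _).2 hp) h1
  rw [← sum_filter_add_sum_filter_not (pb M G) fun χ => p ∣ charDegree (χ : G → ℂ)] at h2
  have h3 : v M (∑ χ ∈ (pb M G).filter fun χ : IrrCharacter G => p ∣ charDegree (χ : G → ℂ),
      (charDegree (χ : G → ℂ) : ℂ) * (χ : G → ℂ) g) < 1 :=
    v_sum_lt_one fun χ hχ => v_mul_lt_one_left ((v_natCast_lt_one_iff hM _).2 (mem_filter.1 hχ).2)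
      (v_le_one_of_isIntegral M (gen_isIntegral (gen_of_irr χ.2) g))
  have h4 := (v M).map_sub_lt h2 h3
  rw [add_sub_cancel_left] at h4
  rwa [show H0 p M G = (pb M G).filter fun χ : IrrCharacter G => ¬ p ∣ charDegree (χ : G → ℂ) from
    Finset.ext fun χ => by rw [mem_H0, mem_filter, mem_pb]]

open Classical in
theorem rel_two [Fintype G] (hM : IsPModular p M) : ∃ (n : IrrCharacter G → ℤ) (R : ℤ),
    ¬ (p : ℤ) ∣ R ∧ ((univ.filter fun g : G => ¬ p ∣ orderOf g).card : ℤ) = R ∧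
    (∀ χ : IrrCharacter G, ∑ g ∈ univ.filter fun g : G => ¬ p ∣ orderOf g, (χ : G → ℂ) g = n χ) ∧
    (∀ χ ∈ H0 p M G, (p : ℤ) ∣ n χ - charDegree (χ : G → ℂ) * R) ∧
    (p : ℤ) ^ 2 ∣ ∑ χ ∈ H0 p M G, n χ ^ 2 - Nat.card G * R := by
  set S := univ.filter fun g : G => ¬ p ∣ orderOf g with hS
  have hev : ∀ χ : G → ℂ, ev χ (regSum p G) = ∑ g ∈ S, χ g := fun χ => by
    rw [regSum, ev_ofFun, hS, sum_filter]
    refine sum_congr rfl fun g _ => ?_
    rw [reg_apply]
    split_ifs <;> simp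
  have hn : ∀ χ : IrrCharacter G, ∃ n : ℤ, ∑ g ∈ S, (χ : G → ℂ) g = n := fun χ =>
    exists_int_sum_gen (gen_of_irr χ.2) S fun m _ g hg => by
      rw [hS, mem_filter] at hg ⊢
      exact ⟨mem_univ _, fun h => hg.2 (h.trans (orderOf_pow_dvd m))⟩
  choose n hn using hn
  have hw : ∀ χ : IrrCharacter G, ∃ w : ℤ, n χ = charDegree (χ : G → ℂ) * w ∧
      omega (χ : G → ℂ) (regSum p G) = w := fun χ => by
    have h1 := omega_isIntegral_int χ.2 (regSum_mem_Z (p := p)) fun g => by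
      rw [regSum, coeff_ofFun, reg_apply]
      split_ifs
      · exact ⟨0, by simp⟩
      · exact ⟨1, by simp⟩
    have h0 : (charDegree (χ : G → ℂ) : ℤ) ≠ 0 := by exact_mod_cast irr_charDegree_ne_zero χ
    rw [omega_apply, hev, hn, ← irr_charDegree_eq] at h1 ⊢
    obtain ⟨w, hw⟩ := int_dvd_of_isIntegral_div h0 (by exact_mod_cast h1)
    refine ⟨w, hw, ?_⟩
    rw [hw]
    push_cast
    rw [mul_div_cancel_left₀]
    exact_mod_cast h0
  choose w hw hw' using hw
  have hR : omega (fun _ : G => (1 : ℂ)) (regSum p G) = ((S.card : ℤ) : ℂ) := by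
    rw [omega_apply, hev]; simp
  have hR' : ¬ (p : ℤ) ∣ (S.card : ℤ) := by
    rw [← v_intCast_eq_one_iff hM, ← hR]; exact v_omega_one_regSum hM
  have hcong : ∀ χ ∈ principalBlock M G, (p : ℤ) ∣ w χ - S.card := fun χ hχ => by
    have := v_sub_lt_one_symm
      (v_omega_sub_lt_one hM irr_one χ.2 hχ (regSum_mem_Z (p := p)) nrm_regSum_le)
    rw [hw', hR, ← Int.cast_sub, v_intCast_lt_one_iff hM] at this
    exact this
  have hzero : ∀ χ ∉ principalBlock M G, n χ = 0 := fun χ hχ => by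
    have := omega_regSum_of_notMem hM hχ
    rw [hw'] at this
    rw [hw, show w χ = 0 by exact_mod_cast this, mul_zero]
  have hsum : ∑ χ, n χ ^ 2 = Nat.card G * (S.card : ℤ) := by
    set f : G → ℂ := pRegularPart p fun _ => 1 with hf
    have hfc : IsClassFunction G f := reg_classFun (classFun_const 1)
    have h1 : ∀ χ : G → ℂ, (Nat.card G : ℂ) * classInner f χ = conj (∑ g ∈ S, χ g) := fun χ => by
      rw [card_mul_inner, map_sum, hS, sum_filter]
      refine sum_congr rfl fun g _ => ?_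
      rw [hf, reg_apply]
      split_ifs <;> simp
    have h2 : (Nat.card G : ℂ) * classInner f f = S.card := by
      rw [h1, sum_congr rfl (g := fun _ => (1 : ℂ)) fun g hg => by
        rw [hf, reg_apply, if_neg (mem_filter.1 hg).2]]
      simp
    have h3 := inner_eq_sum_irr hfc f
    have h4 : ((∑ χ, n χ ^ 2 : ℤ) : ℂ) = ((Nat.card G * (S.card : ℤ) : ℤ) : ℂ) := by
      push_cast
      rw [← h2, h3, mul_sum, mul_sum]
      refine sum_congr rfl fun χ _ => ?_
      have h5 := h1 χ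
      rw [hn, map_intCast] at h5
      have h6 := congrArg conj h5
      rw [map_mul, map_natCast, map_intCast] at h6
      linear_combination (-(n χ : ℂ)) * h5 - (Nat.card G * classInner f χ) * h6
    exact_mod_cast h4
  refine ⟨n, S.card, hR', rfl, hn, fun χ hχ => ?_, ?_⟩
  · rw [hw, ← mul_sub]
    exact (hcong χ (mem_H0.1 hχ).1).mul_left _
  · rw [← hsum, ← sum_filter_add_sum_filter_not univ (· ∈ H0 p M G), filter_mem_eq_inter,
      univ_inter, sub_add_cancel_left, dvd_neg]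
    refine dvd_sum fun χ hχ => ?_
    by_cases h : χ ∈ principalBlock M G
    · have h1 : p ∣ charDegree (χ : G → ℂ) := by
        by_contra h2
        exact (mem_filter.1 hχ).2 (mem_H0.2 ⟨h, h2⟩)
      rw [hw]
      exact pow_dvd_pow_of_dvd (Dvd.dvd.mul_right (by exact_mod_cast h1) _) 2
    · rw [hzero χ h]; simp

theorem gal_mem_H0 (hM : IsPModular p M) {k : ℕ} (hk : k.Coprime (Nat.card G))
    {χ : IrrCharacter G} (h : χ ∈ H0 p M G) : gal hk χ ∈ H0 p M G :=
  mem_H0.2 ⟨gal_mem_pb hM hk (mem_H0.1 h).1, by rw [charDegree_gal]; exact (mem_H0.1 h).2⟩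

theorem gal_ne {k : ℕ} (hk : k.Coprime (Nat.card G)) {χ ψ : IrrCharacter G} (h : χ ≠ ψ) :
    gal hk χ ≠ gal hk ψ := fun e => by
  have := Fintype.ofFinite G
  have h1 := inner_pow_pow hk (χ : G → ℂ) (ψ : G → ℂ)
  have h2 : classInner (gal hk χ : G → ℂ) (gal hk ψ : G → ℂ) = 1 := by
    rw [e]; exact inner_irr_self (gal hk ψ).2
  rw [inner_irr_ne χ.2 ψ.2 fun e => h (Subtype.ext e)] at h1
  exact one_ne_zero (h2.symm.trans h1)

theorem gal_one {k : ℕ} (hk : k.Coprime (Nat.card G)) : gal hk (oneIrr G) = oneIrr G := rfl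

theorem int_valued {φ : G → ℂ} (hφ : IsGeneralizedCharacter G φ)
    (h : ∀ k : ℕ, k.Coprime (Nat.card G) → ∀ g, φ (g ^ k) = φ g) :
    ∃ x : G → ℤ, ∀ g, φ g = x g := by
  have : ∀ g, ∃ n : ℤ, φ g = n := fun g => int_of_fixed (gen_isIntegral hφ g) fun σ => by
    obtain ⟨m, hm, h1⟩ := aut_exists_gen_pow (G := G) (σ : ℂ →+* ℂ)
    exact (h1 φ hφ g).trans (h m hm g)
  choose x hx using this
  exact ⟨x, hx⟩

omit [Finite G] in
theorem sum_mul_int [Fintype G] {φ ψ : G → ℂ} {x y : G → ℤ} (hx : ∀ g, φ g = x g)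
    (hy : ∀ g, ψ g = y g) {c : ℤ} (h : classInner φ ψ = c) :
    ∑ g, x g * y g = c * Fintype.card G := by
  have h1 := card_mul_inner φ ψ
  rw [h, Nat.card_eq_fintype_card] at h1
  have : ((∑ g, x g * y g : ℤ) : ℂ) = ((c * Fintype.card G : ℤ) : ℂ) := by
    push_cast
    rw [mul_comm, h1]
    exact sum_congr rfl fun g _ => by rw [hx, hy, map_intCast]
  exact_mod_cast this

theorem card_H0_le [hp : Fact p.Prime] (hM : IsPModular p M) (P : Sylow p G)
    (hP : Nat.card P = p) : (H0 p M G).card ≤ p := by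
  classical
  have := Fintype.ofFinite G
  set S := univ.filter fun g : G => g ∈ (P : Subgroup G) ∧ g ≠ 1 with hS
  have ho : ∀ u ∈ S, orderOf u = p := fun u hu => by
    obtain ⟨h1, h2⟩ := (mem_filter.1 hu).2
    have h3 := Subgroup.orderOf_dvd_natCard _ h1
    rw [hP] at h3
    exact ((Nat.dvd_prime hp.out).1 h3).resolve_left fun h => h2 (orderOf_eq_one_iff.1 h)
  have hz : ∀ u ∈ S, Subgroup.zpowers u = P := fun u hu =>
    Subgroup.eq_of_le_of_card_ge (Subgroup.zpowers_le.2 (mem_filter.1 hu).2.1)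
      (by rw [Nat.card_zpowers, ho u hu, hP])
  have h1 : ∀ u ∈ S, ∑ χ ∈ pb M G, ‖(χ : G → ℂ) u‖ ^ 2 = p := fun u hu => by
    have hc : Subgroup.centralizer ({u} : Set G) ≤
        Subgroup.centralizer ((P : Subgroup G) : Set G) := by
      rw [← hz u hu, Subgroup.zpowers_eq_closure, Subgroup.centralizer_closure]
    obtain ⟨N, hN, h2, h3⟩ := exists_npc_centralizer P (u := u) (by
      rw [← hz u hu]
      exact Subgroup.zpowers_le.2 (Subgroup.mem_centralizer_singleton_iff.2 rfl))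
      (inf_le_left.trans hc)
    have := sum_pb_section_norm_sq_of_npc hM (u := u) ⟨1, by rw [ho u hu, pow_one]⟩ N h2
      (k := 1) (by rw [h3, hP, pow_one]) 1 (by
        rw [orderOf_one]; exact fun h => hp.out.one_lt.ne' (Nat.dvd_one.1 h))
    rw [h3, hP] at this
    simpa using this
  have h2 : ∀ χ ∈ H0 p M G, (S.card : ℝ) ≤ ∑ u ∈ S, ‖(χ : G → ℂ) u‖ ^ 2 := fun χ hχ => by
    have := card_mul_le_sum_norm_sq_gen hM (gen_of_irr χ.2) S (fun m hm g hg => by
      obtain ⟨a, b⟩ := (mem_filter.1 hg).2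
      refine mem_filter.2 ⟨mem_univ _, pow_mem a m, fun h => b ?_⟩
      rw [← orderOf_eq_one_iff]
      exact Nat.eq_one_of_dvd_coprimes hm (orderOf_dvd_of_pow_eq_one h)
        (orderOf_dvd_natCard g)) (fun g hg h0 => by
      have h3 := v_char_sub_pReg_lt_one hM (irr_isCharacter χ.2) g
      rw [h0, pReg_of_pElement hp.out ⟨1, by rw [ho g hg, pow_one]⟩, zero_sub,
        Valuation.map_neg, ← irr_charDegree_eq, v_natCast_lt_one_iff hM] at h3
      exact (mem_H0.1 hχ).2 h3) (k := 0) (fun g _ => by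
      rw [pow_zero]; exact v_le_one_of_isIntegral M (gen_isIntegral (gen_of_irr χ.2) g))
    simpa using this
  have h3 : ((H0 p M G).card : ℝ) * S.card ≤ p * S.card := by
    calc ((H0 p M G).card : ℝ) * S.card = ∑ _χ ∈ H0 p M G, (S.card : ℝ) := by
          rw [sum_const, nsmul_eq_mul]
      _ ≤ ∑ χ ∈ H0 p M G, ∑ u ∈ S, ‖(χ : G → ℂ) u‖ ^ 2 := sum_le_sum h2
      _ ≤ ∑ χ ∈ pb M G, ∑ u ∈ S, ‖(χ : G → ℂ) u‖ ^ 2 :=
          sum_le_sum_of_subset_of_nonneg (fun χ hχ => mem_pb.2 (mem_H0.1 hχ).1)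
            fun _ _ _ => sum_nonneg fun _ _ => by positivity
      _ = ∑ _u ∈ S, (p : ℝ) := by rw [sum_comm]; exact sum_congr rfl h1
      _ = p * S.card := by rw [sum_const, nsmul_eq_mul, mul_comm]
  have h4 : 0 < S.card := by
    have : Nontrivial (P : Subgroup G) :=
      Finite.one_lt_card_iff_nontrivial.1 (by rw [hP]; exact hp.out.one_lt)
    obtain ⟨u, hu⟩ := exists_ne (1 : (P : Subgroup G))
    exact card_pos.2 ⟨u, mem_filter.2 ⟨mem_univ _, u.2, fun h => hu (Subtype.ext h)⟩⟩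
  have h5 : (0 : ℝ) < S.card := by exact_mod_cast h4
  exact_mod_cast le_of_mul_le_mul_right h3 h5

end CF.Hz3
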