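import Cfsg.Agent.Hz3.A
import Cfsg.Agent.Hz3.B

/-! Principal blocks with two or three characters of height zero. -/

namespace CF.Hz3

open Cfsg Finset CF.Char CF.BlockB
open scoped ComplexConjugate

variable {p : ℕ} {M : Ideal AlgInt} {G : Type*} [Group G] [Finite G]

theorem dvd_card_of_two_le (hM : IsPModular p M) (h : 2 ≤ (H0 p M G).card) : p ∣ Nat.card G := by
  obtain ⟨χ, hχ, h1⟩ := exists_mem_ne h (oneIrr G)
  obtain ⟨g, hg, -⟩ := exists_singular_ne_zero_of_mem_pb hM (mem_H0.1 hχ).1 h1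
  exact hg.trans (orderOf_dvd_natCard g)

theorem dvd_of_v (hM : IsPModular p M) {z : ℂ} {n : ℤ} (h : v M z < 1) (e : z = n) :
    (p : ℤ) ∣ n := by
  rw [e, v_intCast_lt_one_iff hM] at h; exact h

theorem card_eq_of_not_sq [hp : Fact p.Prime] (P : Sylow p G) (h1 : p ∣ Nat.card G)
    (h2 : ¬ p ^ 2 ∣ Nat.card G) : Nat.card P = p := by
  obtain ⟨k, hk⟩ := IsPGroup.iff_card.1 P.isPGroup'
  have h3 := P.dvd_card_of_dvd_card h1
  have h4 := (P : Subgroup G).card_subgroup_dvd_card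
  change Nat.card (P : Subgroup G) = p
  change p ∣ Nat.card (P : Subgroup G) at h3
  rw [hk] at h3 h4 ⊢
  match k with
  | 0 => exact absurd (Nat.dvd_one.1 (by simpa using h3)) hp.out.one_lt.ne'
  | 1 => exact pow_one p
  | k + 2 => exact absurd ((pow_dvd_pow p (by omega)).trans h4) h2

theorem two_case (hM : IsPModular p M) (h : (H0 p M G).card = 2) :
    p = 2 ∧ ¬ p ^ 2 ∣ Nat.card G := by
  classical
  have := Fintype.ofFinite G
  have hp := dvd_card_of_two_le hM h.ge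
  obtain ⟨ψ, hψ, h1⟩ := exists_mem_ne h.ge (oneIrr G)
  have hH : H0 p M G = {oneIrr G, ψ} := by
    symm
    refine eq_of_subset_of_card_le (insert_subset (one_mem_H0 hM) (singleton_subset_iff.2 hψ)) ?_
    rw [h, card_pair h1.symm]
  obtain ⟨y, hy⟩ := int_valued (gen_of_irr ψ.2) fun k hk g => by
    have h2 := gal_mem_H0 hM hk hψ
    rw [hH, mem_insert, mem_singleton] at h2
    exact (gal_eq_iff hk).1 (h2.resolve_left (gal_ne hk h1)) g
  set e : ℤ := ((charDegree (ψ : G → ℂ) : ℕ) : ℤ) with he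
  have hr : ∀ g, (p : ℤ) ∣ 1 + e * y g := fun g => dvd_of_v hM (rel_one hM hp g) (by
    rw [hH, sum_pair h1.symm, deg_one, hy, he]; simp)
  have hy1 : y 1 = e := by
    have := hy 1
    rw [← irr_charDegree_eq] at this
    exact_mod_cast this.symm
  have hs := sum_mul_int hy hy (c := 1) (by rw [inner_irr_self ψ.2]; simp)
  have h2 := all_eq_of_sum (f := fun g => y g * y g) (c := 1) (fun g => by
    have : y g ≠ 0 := fun h0 => not_dvd_one' hM.1 (by simpa [h0] using hr g)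
    have := mul_self_pos.2 this
    omega) hs 1
  simp only [hy1] at h2
  have hp2 : p = 2 := by
    have h3 := hr 1
    rw [hy1, h2] at h3
    exact (Nat.prime_dvd_prime_iff_eq hM.1 Nat.prime_two).1 (by exact_mod_cast h3)
  refine ⟨hp2, fun h4 => ?_⟩
  subst hp2
  obtain ⟨n, R, r1, -, -, r2, r3⟩ := rel_two (G := G) hM
  rw [hH, sum_pair h1.symm] at r3
  have a1 := r2 _ (one_mem_H0 hM)
  have a2 := r2 _ hψ
  rw [deg_one] at a1
  rw [← he] at a2
  have h5 : ((2 : ℕ) : ℤ) ^ 2 ∣ (Nat.card G : ℤ) * R := Dvd.dvd.mul_right (by exact_mod_cast h4) _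
  have h6 := r3.add h5
  rw [sub_add_cancel] at h6
  have e1 : e = 1 ∨ e = -1 := Int.eq_one_or_neg_one_of_mul_eq_one h2
  push_cast at r1 a1 a2 h6
  obtain ⟨a, ha⟩ : ∃ a, n (oneIrr G) = 2 * a + 1 := ⟨n (oneIrr G) / 2, by omega⟩
  obtain ⟨b, hb⟩ : ∃ b, n ψ = 2 * b + 1 := ⟨n ψ / 2, by rcases e1 with e1 | e1 <;> rw [e1] at a2 <;> omega⟩
  rw [ha, hb, show (2 * a + 1) ^ 2 + (2 * b + 1) ^ 2 = 4 * (a ^ 2 + a + b ^ 2 + b) + 2 by ring] at h6
  omega

theorem three_case (hM : IsPModular p M) (h : (H0 p M G).card = 3) :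
    p = 3 ∧ ¬ p ^ 2 ∣ Nat.card G := by
  classical
  have := Fintype.ofFinite G
  have hp := dvd_card_of_two_le (G := G) hM (by omega)
  obtain ⟨χ, ψ, hne, hH'⟩ := card_eq_two.1
    (show ((H0 p M G).erase (oneIrr G)).card = 2 by rw [card_erase_of_mem (one_mem_H0 hM), h])
  have m1 : χ ∈ (H0 p M G).erase (oneIrr G) := by rw [hH']; simp
  have m2 : ψ ∈ (H0 p M G).erase (oneIrr G) := by rw [hH']; simp
  obtain ⟨hχ1, hχ⟩ := mem_erase.1 m1
  obtain ⟨hψ1, hψ⟩ := mem_erase.1 m2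
  have hsum : ∀ {A : Type} [AddCommMonoid A] (f : IrrCharacter G → A),
      ∑ θ ∈ H0 p M G, f θ = f (oneIrr G) + f χ + f ψ := fun f => by
    rw [← add_sum_erase _ _ (one_mem_H0 hM), hH', sum_pair hne, add_assoc]
  have hgal : ∀ {k : ℕ} (hk : k.Coprime (Nat.card G)),
      (gal hk χ = χ ∧ gal hk ψ = ψ) ∨ (gal hk χ = ψ ∧ gal hk ψ = χ) := fun hk => by
    have a1 : gal hk χ ∈ (H0 p M G).erase (oneIrr G) :=
      mem_erase.2 ⟨gal_ne hk hχ1, gal_mem_H0 hM hk hχ⟩
    have a2 : gal hk ψ ∈ (H0 p M G).erase (oneIrr G) :=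
      mem_erase.2 ⟨gal_ne hk hψ1, gal_mem_H0 hM hk hψ⟩
    have a3 := gal_ne hk hne
    rw [hH', mem_insert, mem_singleton] at a1 a2
    rcases a1 with a1 | a1 <;> rcases a2 with a2 | a2
    · exact absurd (a1.trans a2.symm) a3
    · exact Or.inl ⟨a1, a2⟩
    · exact Or.inr ⟨a1, a2⟩
    · exact absurd (a1.trans a2.symm) a3
  set d : ℤ := ((charDegree (χ : G → ℂ) : ℕ) : ℤ) with hd
  set e : ℤ := ((charDegree (ψ : G → ℂ) : ℕ) : ℤ) with he
  have hd' : (χ : G → ℂ) 1 = d := by rw [hd, ← irr_charDegree_eq]; simp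
  have he' : (ψ : G → ℂ) 1 = e := by rw [he, ← irr_charDegree_eq]; simp
  have hpd : ¬ (p : ℤ) ∣ d := fun h => (mem_H0.1 hχ).2 (by rw [hd] at h; exact_mod_cast h)
  have hpe : ¬ (p : ℤ) ∣ e := fun h => (mem_H0.1 hψ).2 (by rw [he] at h; exact_mod_cast h)
  have hr : ∀ g, v M (1 + d * (χ : G → ℂ) g + e * (ψ : G → ℂ) g) < 1 := fun g => by
    have := rel_one hM hp g
    rw [hsum, deg_one] at this
    simpa [hd, he] using this
  have n1 : (χ : G → ℂ) ≠ fun _ => 1 := fun e => hχ1 (Subtype.ext e)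
  have n2 : (ψ : G → ℂ) ≠ fun _ => 1 := fun e => hψ1 (Subtype.ext e)
  have n3 : (χ : G → ℂ) ≠ ψ := fun e => hne (Subtype.ext e)
  have i11 := inner_irr_self χ.2
  have i22 := inner_irr_self ψ.2
  have i12 := inner_irr_ne χ.2 ψ.2 n3
  have i21 := inner_irr_ne ψ.2 χ.2 n3.symm
  have i10 := inner_irr_ne χ.2 irr_one n1
  have i20 := inner_irr_ne ψ.2 irr_one n2
  have i01 := inner_irr_ne irr_one χ.2 n1.symm
  have i02 := inner_irr_ne irr_one ψ.2 n2.symm
  have i00 := inner_one_one (G := G)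
  have hcase : (∀ (k : ℕ) (hk : k.Coprime (Nat.card G)), gal hk χ = χ ∧ gal hk ψ = ψ) ∨ d = e := by
    by_cases h : ∀ (k : ℕ) (hk : k.Coprime (Nat.card G)), gal hk χ = χ ∧ gal hk ψ = ψ
    · exact Or.inl h
    · push Not at h
      obtain ⟨k, hk, h⟩ := h
      rcases hgal hk with a | a
      · exact absurd a.2 (h a.1)
      · right; rw [hd, he, ← a.1, charDegree_gal]
  have hp3 : p = 3 := by
    rcases hcase with hc | hc
    · obtain ⟨x, hx⟩ := int_valued (gen_of_irr χ.2) fun k hk => (gal_eq_iff hk).1 (hc k hk).1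
      obtain ⟨y, hy⟩ := int_valued (gen_of_irr ψ.2) fun k hk => (gal_eq_iff hk).1 (hc k hk).2
      have s1 := sum_mul_int (y := fun _ => 1) (ψ := fun _ => 1) hx (by simp) (c := 0)
        (by rw [i10]; simp)
      have s2 := sum_mul_int (y := fun _ => 1) (ψ := fun _ => 1) hy (by simp) (c := 0)
        (by rw [i20]; simp)
      have s3 := sum_mul_int hx hx (c := 1) (by rw [i11]; simp)
      have s4 := sum_mul_int hy hy (c := 1) (by rw [i22]; simp)
      refine caseA hM.1 (x := x) (y := y) 1 ?_ ?_ hpd hpe (by simpa using s1) (by simpa using s2)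
        (by simpa [sq] using s3) (by simpa [sq] using s4) fun g => dvd_of_v hM (hr g) ?_
      · exact_mod_cast (hx 1).symm.trans hd'
      · exact_mod_cast (hy 1).symm.trans he'
      · rw [hx, hy]; push_cast; ring
    · obtain ⟨t, ht⟩ := int_valued (gen_add (gen_of_irr χ.2) (gen_of_irr ψ.2)) fun k hk g => by
        simp only [Pi.add_apply, ← gal_apply hk]
        rcases hgal hk with a | a <;> rw [a.1, a.2]
        exact add_comm _ _
      have s1 := sum_mul_int ht ht (c := 2) (by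
        rw [Char.inner_add_left, Char.inner_add_right, Char.inner_add_right, i11, i12, i21, i22]; norm_num)
      refine caseB hM.1 (t := t) (d := d) 1 ?_ (by simpa [sq] using s1)
        fun g => dvd_of_v hM (hr g) ?_
      · have := ht 1
        rw [Pi.add_apply, hd', he', ← hc] at this
        have h2 : ((t 1 : ℤ) : ℂ) = ((2 * d : ℤ) : ℂ) := by rw [← this]; push_cast; ring
        exact_mod_cast h2
      · push_cast; rw [← ht, ← hc, Pi.add_apply]; ring
  refine ⟨hp3, fun h9 => ?_⟩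
  subst hp3
  push_cast at hpd hpe
  obtain ⟨δ, η, hδ, hη, hδd, hηe, hde⟩ : ∃ δ η : ℤ, δ ^ 2 = 1 ∧ η ^ 2 = 1 ∧ 3 ∣ d - δ ∧
      3 ∣ e - η ∧ (d = e → δ = η) :=
    ⟨if d % 3 = 1 then 1 else -1, if e % 3 = 1 then 1 else -1, by split_ifs <;> norm_num,
      by split_ifs <;> norm_num, by split_ifs <;> omega, by split_ifs <;> omega,
      fun h => by rw [h]⟩
  set F : G → ℂ := (fun _ => 1) + (δ : ℂ) • (χ : G → ℂ) + (η : ℂ) • (ψ : G → ℂ) with hF
  have hFg : IsGeneralizedCharacter G F := gen_add (gen_add gen_const_one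
    (gen_intCast_smul (gen_of_irr χ.2) δ)) (gen_intCast_smul (gen_of_irr ψ.2) η)
  have hFa : ∀ g, F g = 1 + δ * (χ : G → ℂ) g + η * (ψ : G → ℂ) g := fun g => by simp [hF]
  obtain ⟨Φ, hΦ⟩ := int_valued hFg fun k hk g => by
    rw [hFa, hFa, ← gal_apply hk, ← gal_apply hk]
    rcases hgal hk with a | a
    · rw [a.1, a.2]
    · rcases hcase with hc | hc
      · rw [(hc k hk).1, (hc k hk).2]
      · rw [a.1, a.2, hde hc]; ring
  have hδ' : (δ : ℂ) ^ 2 = 1 := by exact_mod_cast hδ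
  have hη' : (η : ℂ) ^ 2 = 1 := by exact_mod_cast hη
  have h3 : ∀ g, (3 : ℤ) ∣ Φ g := fun g => by
    refine dvd_of_v (p := 3) hM (z := F g) ?_ (hΦ g)
    have e1 : F g = (1 + d * (χ : G → ℂ) g + e * (ψ : G → ℂ) g) -
        (((d - δ : ℤ) : ℂ) * (χ : G → ℂ) g + ((e - η : ℤ) : ℂ) * (ψ : G → ℂ) g) := by
      rw [hFa]; push_cast; ring
    rw [e1]
    refine (v M).map_sub_lt (hr g) ((v M).map_add_lt ?_ ?_)
    · exact v_mul_lt_one_left ((v_intCast_lt_one_iff hM _).2 hδd)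
        (v_le_one_of_isIntegral M (gen_isIntegral (gen_of_irr χ.2) g))
    · exact v_mul_lt_one_left ((v_intCast_lt_one_iff hM _).2 hηe)
        (v_le_one_of_isIntegral M (gen_isIntegral (gen_of_irr ψ.2) g))
  have s1 := sum_mul_int (y := fun _ => 1) (ψ := fun _ => 1) hΦ (by simp) (c := 1) (by
    rw [hF, Char.inner_add_left, Char.inner_add_left, Char.inner_smul_left, Char.inner_smul_left, i00, i10, i20]
    simp)
  have s2 := sum_mul_int hΦ hΦ (c := 3) (by
    simp only [hF, Char.inner_add_left, Char.inner_add_right, Char.inner_smul_left, Char.inner_smul_right, i00, i10,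
      i20, i01, i02, i11, i12, i21, i22, map_intCast]
    push_cast
    linear_combination hδ' + hη')
  have h03 := zero_or_three h3 (by simpa using s1) (by simpa [sq] using s2)
  have hconst : ∀ s : G, ¬ 3 ∣ orderOf s → Φ s = Φ 1 := fun s hs => by
    obtain ⟨m, hm⟩ := inner_gen_eq_int (gen_restrict hFg (Subgroup.zpowers s))
      (gen_const_one (G := Subgroup.zpowers s))
    have s3 := sum_mul_int (x := fun h : Subgroup.zpowers s => Φ h) (y := fun _ => 1)
      (fun h => hΦ h) (by simp) hm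
    exact const_of_sum (F := fun h : Subgroup.zpowers s => Φ h) (fun h => h03 h)
      (by rwa [Fintype.card_zpowers]) ⟨m, by simpa [mul_comm] using s3⟩
      ⟨s, Subgroup.mem_zpowers s⟩ 1
  obtain ⟨n, R, r1, r0, r4, r2, r3⟩ := rel_two (G := G) hM
  rw [hsum] at r3
  have h5 : ((3 : ℕ) : ℤ) ^ 2 ∣ (Nat.card G : ℤ) * R := Dvd.dvd.mul_right (by exact_mod_cast h9) _
  have h6 := r3.add h5
  rw [sub_add_cancel] at h6
  have a0 : n (oneIrr G) = R := by
    have := r4 (oneIrr G)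
    simp only [oneIrr_apply, sum_const, nsmul_eq_mul, mul_one] at this
    rw [← r0]
    exact_mod_cast this.symm
  have a1 := r2 _ hχ
  have a2 := r2 _ hψ
  rw [← hd] at a1
  rw [← he] at a2
  push_cast at r1 a1 a2 h6
  refine nine_contra (a := R) (b := δ * n χ) (c := η * n ψ) r1 ?_ ?_ (h03 1) ?_ ?_
  · have : δ * n χ - R = δ * (n χ - d * R) + δ * R * (d - δ) := by linear_combination R * hδ
    rw [this]; exact (a1.mul_left _).add (hδd.mul_left _)
  · have : η * n ψ - R = η * (n ψ - e * R) + η * R * (e - η) := by linear_combination R * hη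
    rw [this]; exact (a2.mul_left _).add (hηe.mul_left _)
  · have b1 : ∑ g ∈ univ.filter fun g : G => ¬ 3 ∣ orderOf g, F g = ((Φ 1 * R : ℤ) : ℂ) := by
      rw [sum_congr rfl (g := fun _ => ((Φ 1 : ℤ) : ℂ)) fun g hg => by
        rw [hΦ, hconst g (mem_filter.1 hg).2], sum_const, nsmul_eq_mul, ← r0]
      push_cast; ring
    simp only [hFa, sum_add_distrib, ← mul_sum, r4, sum_const, nsmul_eq_mul, mul_one] at b1
    rw [← r0]
    rw [← r0] at b1
    exact_mod_cast b1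
  · have : R ^ 2 + (δ * n χ) ^ 2 + (η * n ψ) ^ 2 = n (oneIrr G) ^ 2 + n χ ^ 2 + n ψ ^ 2 := by
      rw [a0]; linear_combination (n χ) ^ 2 * hδ + (n ψ) ^ 2 * hη
    rw [this]; exact h6

theorem card_H0_eq [hp : Fact p.Prime] (hM : IsPModular p M) (P : Sylow p G)
    (hP : Nat.card P = p) (h23 : p = 2 ∨ p = 3) : (H0 p M G).card = p := by
  have h1 := card_H0_le hM P hP
  have h2 : p ∣ Nat.card G := hP ▸ (P : Subgroup G).card_subgroup_dvd_card
  have h3 : (p : ℤ) ∣ ∑ χ ∈ H0 p M G, (charDegree (χ : G → ℂ) : ℤ) ^ 2 :=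
    dvd_of_v hM (rel_one hM h2 1) (by
      push_cast
      exact sum_congr rfl fun χ _ => by rw [← irr_charDegree_eq, sq])
  have h4 : (p : ℤ) ∣ ∑ χ ∈ H0 p M G, ((charDegree (χ : G → ℂ) : ℤ) ^ 2 - 1) :=
    dvd_sum fun χ hχ => by
      have h5 : ¬ (p : ℤ) ∣ charDegree (χ : G → ℂ) := fun h =>
        (mem_H0.1 hχ).2 (by exact_mod_cast h)
      generalize (charDegree (χ : G → ℂ) : ℤ) = d at h5
      rcases h23 with rfl | rfl
      · push_cast at h5 ⊢
        obtain ⟨a, rfl⟩ : ∃ a, d = 2 * a + 1 := ⟨d / 2, by omega⟩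
        exact ⟨2 * a ^ 2 + 2 * a, by ring⟩
      · push_cast at h5 ⊢
        obtain ⟨a, rfl | rfl⟩ : ∃ a, d = 3 * a + 1 ∨ d = 3 * a + 2 := ⟨d / 3, by omega⟩
        · exact ⟨3 * a ^ 2 + 2 * a, by ring⟩
        · exact ⟨3 * a ^ 2 + 4 * a + 1, by ring⟩
  rw [sum_sub_distrib, sum_const, nsmul_eq_mul, mul_one] at h4
  have h5 : p ∣ (H0 p M G).card := by exact_mod_cast (dvd_sub_right h3).1 h4
  exact le_antisymm h1 (Nat.le_of_dvd (card_pos.2 ⟨_, one_mem_H0 hM⟩) h5)

theorem main [hp : Fact p.Prime] (hM : IsPModular p M) (P : Sylow p G) {k : ℕ}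
    (hk : k = 2 ∨ k = 3) : (H0 p M G).card = k ↔ Nat.card P = k := by
  constructor
  · intro h
    have h0 := dvd_card_of_two_le (G := G) hM (by omega)
    rcases hk with rfl | rfl
    · obtain ⟨h1, h2⟩ := two_case hM h
      rw [card_eq_of_not_sq P h0 h2, h1]
    · obtain ⟨h1, h2⟩ := three_case hM h
      rw [card_eq_of_not_sq P h0 h2, h1]
  · intro h
    have hkp : k.Prime := by rcases hk with rfl | rfl <;> norm_num
    obtain ⟨j, hj⟩ := IsPGroup.iff_card.1 P.isPGroup'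
    have h1 : p = k := by
      have h2 : k = p ^ j := h.symm.trans hj
      exact ((Nat.prime_dvd_prime_iff_eq hkp hp.out).1 (hkp.dvd_of_dvd_pow h2.dvd)).symm
    subst h1
    exact card_H0_eq hM P h hk

end CF.Hz3
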